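import Cfsg.Agent.H589.BD.Core
import Cfsg.Agent.S0165

/-!
# S4932: the criteria for `Kill` (helper589)

`kill_three`, `kill_common`, `kill_zero`, and the transfer `Kill.of_equiv`.
-/

set_option autoImplicit false
set_option linter.unusedSectionVars false
set_option linter.style.haveILetI false

open Cfsg

namespace Cfsg.Agent.H589.BD

open Cfsg.Agent.H686.CharKit Cfsg.Agent.H684.BlockTools

universe u v

variable {p : ℕ} [Fact p.Prime]

section fin

variable {A : Type u} [Group A] [Finite A] {M : Ideal AlgInt} {N : Subgroup A}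

theorem cd0_finite : (cd0 M A).Finite := by
  have : Finite (IrrCharacter A) := Characters.Core.finite_irr
  refine (Set.finite_range fun χ : IrrCharacter A => charDegree (χ : A → ℂ)).subset ?_
  rintro d ⟨χ, -, h⟩
  exact ⟨χ, h⟩

theorem one_mem_cd0 (hM : IsPModular p M) : 1 ∈ cd0 M A :=
  ⟨triv A, triv_mem hM, (charDegree_eq_one_iff _).2 rfl⟩

theorem mem_cd0_of_nb {χ : IrrCharacter A} (h : χ ∈ nb M N) : charDegree (χ : A → ℂ) ∈ cd0 M A :=
  ⟨χ, (mem_nb.1 h).1, rfl⟩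

omit [Fact p.Prime] in
theorem four_le {s : Set ℕ} (hs : s.Finite) {a b c d : ℕ} (ha : a ∈ s) (hb : b ∈ s) (hc : c ∈ s) (hd : d ∈ s)
    (hab : a ≠ b) (hac : a ≠ c) (had : a ≠ d) (hbc : b ≠ c) (hbd : b ≠ d) (hcd : c ≠ d) : 3 < s.ncard := by
  have h1 : (({a, b, c, d} : Finset ℕ) : Set ℕ) ⊆ s := by
    intro x hx
    simp only [Finset.coe_insert, Finset.coe_singleton, Set.mem_insert_iff, Set.mem_singleton_iff] at hx
    rcases hx with rfl | rfl | rfl | rfl <;> assumption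
  have h2 := Set.ncard_le_ncard h1 hs
  rw [Set.ncard_coe_finset] at h2
  have h3 : ({a, b, c, d} : Finset ℕ).card = 4 := by
    rw [Finset.card_insert_of_notMem (by simp [hab, hac, had]), Finset.card_insert_of_notMem (by simp [hbc, hbd]),
      Finset.card_insert_of_notMem (by simp [hcd]), Finset.card_singleton]
  omega

omit [Fact p.Prime] in
/-- Three different elements of a set with at most three elements: these are all. -/
theorem mem_of_le_three {s : Set ℕ} (hs : s.Finite) (h3 : s.ncard ≤ 3) {a b c : ℕ} (ha : a ∈ s) (hb : b ∈ s)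
    (hc : c ∈ s) (hab : a ≠ b) (hac : a ≠ c) (hbc : b ≠ c) {d : ℕ} (hd : d ∈ s) : d = a ∨ d = b ∨ d = c := by
  by_contra hcon
  push Not at hcon
  have := four_le hs ha hb hc hd hab hac hcon.1.symm hbc hcon.2.1.symm hcon.2.2.symm
  omega

end fin

variable {S : Type u} [Group S] [Finite S]

theorem Kill.of_equiv {T : Type u} [Group T] (e : S ≃* T) (h : Kill p S) : Kill p T := by
  intro A _ _ N hN M hM
  obtain ⟨f⟩ := hN.iso
  exact h A N ⟨hN.normal, ⟨f.trans e.symm⟩, hN.cent⟩ M hM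

/-- Different degrees above. -/
theorem ne_of_not_rel {A : Type u} [Group A] {o : ℕ} {α β : IrrCharacter S} {χ ψ : IrrCharacter A}
    (h1 : charDegree (α : S → ℂ) ∣ charDegree (χ : A → ℂ))
    (h2 : charDegree (χ : A → ℂ) / charDegree (α : S → ℂ) ∣ o)
    (h3 : charDegree (β : S → ℂ) ∣ charDegree (ψ : A → ℂ))
    (h4 : charDegree (ψ : A → ℂ) / charDegree (β : S → ℂ) ∣ o)
    (h : ¬ Rel o (charDegree (α : S → ℂ)) (charDegree (β : S → ℂ))) :
    charDegree (χ : A → ℂ) ≠ charDegree (ψ : A → ℂ) := by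
  intro heq
  exact h ⟨_, _, h2, h4, by rw [Nat.mul_div_cancel' h1, Nat.mul_div_cancel' h3, heq]⟩

theorem degree_ne_one_of_nb [IsSimpleGroup S] (hna : ¬ IsMulCommutative S) {A : Type u} [Group A] [Finite A]
    {M : Ideal AlgInt} {N : Subgroup A} (hM : IsPModular p M) (h : Over S N) {χ : IrrCharacter A} (hχ : χ ∈ nb M N) :
    charDegree (χ : A → ℂ) ≠ 1 := by
  obtain ⟨θ, -, h2, h3, -⟩ := below hM h hχ
  intro h1
  rw [h1] at h3
  exact h2.degree_ne_one (commutator_top hna) (Nat.dvd_one.1 h3)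

theorem kill_three [IsSimpleGroup S] (hna : ¬ IsMulCommutative S) (α β γ : IrrCharacter S) (hα : InB0 p α) (hβ : InB0 p β)
    (hγ : InB0 p γ) (nα : NT α) (nβ : NT β) (nγ : NT γ)
    (h1 : ¬ Rel (Nat.card (Out S)) (charDegree (α : S → ℂ)) (charDegree (β : S → ℂ)))
    (h2 : ¬ Rel (Nat.card (Out S)) (charDegree (α : S → ℂ)) (charDegree (γ : S → ℂ)))
    (h3 : ¬ Rel (Nat.card (Out S)) (charDegree (β : S → ℂ)) (charDegree (γ : S → ℂ))) : Kill p S := by
  intro A _ _ N hN M hM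
  obtain ⟨χ₁, m1, d1, e1⟩ := above hM hN α hα nα
  obtain ⟨χ₂, m2, d2, e2⟩ := above hM hN β hβ nβ
  obtain ⟨χ₃, m3, d3, e3⟩ := above hM hN γ hγ nγ
  exact four_le cd0_finite (one_mem_cd0 hM) (mem_cd0_of_nb m1) (mem_cd0_of_nb m2) (mem_cd0_of_nb m3)
    (degree_ne_one_of_nb hna hM hN m1).symm (degree_ne_one_of_nb hna hM hN m2).symm
    (degree_ne_one_of_nb hna hM hN m3).symm (ne_of_not_rel d1 e1 d2 e2 h1) (ne_of_not_rel d1 e1 d3 e3 h2)
    (ne_of_not_rel d2 e2 d3 e3 h3)

/-- The degrees in a group over `S` with at most three degrees in `B₀`. -/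
theorem degree_mem [IsSimpleGroup S] (hna : ¬ IsMulCommutative S) {A : Type u} [Group A] [Finite A]
    {M : Ideal AlgInt} {N : Subgroup A} (hM : IsPModular p M) (h : Over S N) (h3 : (cd0 M A).ncard ≤ 3)
    {χ ψ ξ : IrrCharacter A} (hχ : χ ∈ nb M N) (hψ : ψ ∈ nb M N) (hξ : ξ ∈ nb M N)
    (hne : charDegree (χ : A → ℂ) ≠ charDegree (ψ : A → ℂ)) :
    charDegree (ξ : A → ℂ) = charDegree (χ : A → ℂ) ∨ charDegree (ξ : A → ℂ) = charDegree (ψ : A → ℂ) := by
  rcases mem_of_le_three cd0_finite h3 (one_mem_cd0 hM) (mem_cd0_of_nb hχ) (mem_cd0_of_nb hψ)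
    (degree_ne_one_of_nb hna hM h hχ).symm (degree_ne_one_of_nb hna hM h hψ).symm hne (mem_cd0_of_nb hξ) with
    h4 | h4 | h4
  · exact absurd h4 (degree_ne_one_of_nb hna hM h hξ)
  · exact Or.inl h4
  · exact Or.inr h4

theorem isIntegral_irr {A : Type u} [Group A] [Finite A] (χ : IrrCharacter A) (u : A) :
    IsIntegral ℤ ((χ : A → ℂ) u) :=
  Blocks.Blau.isIntegral_of_isCharacter (Characters.Core.isIrr_isCharacter χ.2) u

/-- If `g` divides the degrees of all characters of `nb M N` not vanishing at `u`, then `g ≤ |Out S|`. -/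
theorem le_of_dvd_all {A : Type u} [Group A] [Finite A] {M : Ideal AlgInt} {N : Subgroup A} (hM : IsPModular p M)
    (h : Over S N) {u : A} (hu : p ∣ orderOf u) (huN : u ∈ N) {g : ℕ}
    (hg : ∀ χ ∈ nb M N, (χ : A → ℂ) u ≠ 0 → g ∣ charDegree (χ : A → ℂ)) : g ≤ Nat.card (Out S) := by
  obtain ⟨D, h1, h2, h3⟩ := relation hM h
  have h4 := h3 u hu huN
  have h5 : ∑ χ ∈ nb M N, (charDegree (χ : A → ℂ) : ℂ) * (χ : A → ℂ) u =
      (g : ℂ) * ∑ χ ∈ nb M N, ((charDegree (χ : A → ℂ) / g : ℕ) : ℂ) * (χ : A → ℂ) u := by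
    rw [Finset.mul_sum]
    refine Finset.sum_congr rfl fun χ hχ => ?_
    by_cases h0 : (χ : A → ℂ) u = 0
    · rw [h0]
      ring
    · rw [← mul_assoc, ← Nat.cast_mul, Nat.mul_div_cancel' (hg χ hχ h0)]
  rw [h5] at h4
  refine (Nat.le_of_dvd h1 (dvd_of_int ?_ h4)).trans h2
  refine IsIntegral.sum _ fun χ _ => IsIntegral.mul ?_ (isIntegral_irr χ u)
  exact_mod_cast (isIntegral_algebraMap (R := ℤ) (A := ℂ) (x := ((charDegree (χ : A → ℂ) / g : ℕ) : ℤ)))

/-- `p`-singular elements of `N`. -/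
theorem exists_singular {A : Type u} [Group A] {N : Subgroup A} (h : Over S N)
    {u : S} (hu : p ∣ orderOf u) : ∃ x ∈ N, orderOf x = orderOf u := by
  obtain ⟨e⟩ := h.iso
  refine ⟨(e.symm u : A), (e.symm u).2, ?_⟩
  rw [Subgroup.orderOf_coe]
  exact orderOf_injective e.symm.toMonoidHom e.symm.injective u

theorem kill_common [IsSimpleGroup S] (hna : ¬ IsMulCommutative S) (hS : SizeOK S) (hp : p ∣ Nat.card S) (α β : IrrCharacter S)
    (hα : InB0 p α) (hβ : InB0 p β) (nα : NT α) (nβ : NT β) {g : ℕ} (hg : Nat.card (Out S) < g)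
    (gα : g ∣ charDegree (α : S → ℂ)) (gβ : g ∣ charDegree (β : S → ℂ))
    (h1 : ¬ Rel (Nat.card (Out S)) (charDegree (α : S → ℂ)) (charDegree (β : S → ℂ))) : Kill p S := by
  intro A _ _ N hN M hM
  by_contra hcon
  rw [not_lt] at hcon
  obtain ⟨χ₁, m1, d1, e1⟩ := above hM hN α hα nα
  obtain ⟨χ₂, m2, d2, e2⟩ := above hM hN β hβ nβ
  obtain ⟨s, hs⟩ := exists_prime_orderOf_dvd_card' p hp
  obtain ⟨u, huN, hu⟩ := exists_singular (p := p) hN (u := s) (by rw [hs])
  refine absurd (le_of_dvd_all hM hN (u := u) (by rw [hu, hs]) huN (g := g) fun χ hχ _ => ?_) (not_le.2 hg)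
  rcases degree_mem hna hM hN hcon m1 m2 hχ (ne_of_not_rel d1 e1 d2 e2 h1) with h | h
  · rw [h]
    exact gα.trans d1
  · rw [h]
    exact gβ.trans d2

/-- Characters of `r`-defect zero vanish at the `r`-singular elements. -/
theorem vanish {A : Type u} [Group A] [Finite A] (χ : IrrCharacter A) {r : ℕ} (hr : r.Prime)
    (h : ordProj[r] (Nat.card A) ∣ charDegree (χ : A → ℂ)) {u : A} (hu : r ∣ orderOf u) : (χ : A → ℂ) u = 0 := by
  obtain ⟨n, ρ, hρ, h1, h2⟩ := H596.exists_rep χ.2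
  rw [← h1]
  rw [h2] at h
  have := hρ
  exact S0165.result ρ r ((Nat.card A).factorization r) hr (Nat.ordProj_dvd _ _)
    (Nat.pow_succ_factorization_not_dvd Nat.card_pos.ne' hr) h u hu

theorem kill_zero [IsSimpleGroup S] (hna : ¬ IsMulCommutative S) (hS : SizeOK S) (α : IrrCharacter S)
    (hα : InB0 p α) (nα : NT α) {r : ℕ} (hr : r.Prime) (hrp : r ≠ p) (hro : Nat.card (Out S) < r)
    (rα : ordProj[r] (Nat.card S) ∣ charDegree (α : S → ℂ)) (u : S) (hu : p * r ∣ orderOf u) : Kill p S := by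
  intro A _ _ N hN M hM
  by_contra hcon
  rw [not_lt] at hcon
  obtain ⟨χ₁, m1, d1, e1⟩ := above hM hN α hα nα
  obtain ⟨x, hxN, hx⟩ := exists_singular (p := p) hN (u := u) ((dvd_mul_right p r).trans hu)
  have hpx : p ∣ orderOf x := by rw [hx]; exact (dvd_mul_right p r).trans hu
  have hrx : r ∣ orderOf x := by rw [hx]; exact (dvd_mul_left r p).trans hu
  -- the `r`-part of `|A|`
  have hcard : ordProj[r] (Nat.card A) = ordProj[r] (Nat.card S) := by
    obtain ⟨e⟩ := hN.iso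
    have h1 : Nat.card A = Nat.card S * N.index := by
      rw [← Nat.card_congr e.toEquiv, Subgroup.card_mul_index]
    have h2 : ¬ r ∣ N.index := fun h =>
      absurd (Nat.le_of_dvd Nat.card_pos (h.trans (over_index hN))) (not_le.2 hro)
    rw [h1, Nat.factorization_mul Nat.card_pos.ne' Subgroup.index_ne_zero_of_finite, Finsupp.add_apply,
      Nat.factorization_eq_zero_of_not_dvd h2, add_zero]
  have hvan : ∀ χ : IrrCharacter A, charDegree (χ : A → ℂ) = charDegree (χ₁ : A → ℂ) → (χ : A → ℂ) x = 0 := by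
    intro χ h
    refine vanish χ hr ?_ hrx
    rw [h, hcard]
    exact rα.trans d1
  by_cases hex : ∃ ψ ∈ nb M N, charDegree (χ₁ : A → ℂ) ≠ charDegree (ψ : A → ℂ)
  · obtain ⟨ψ, hψ, hne⟩ := hex
    have h1 := le_of_dvd_all hM hN hpx hxN (g := charDegree (ψ : A → ℂ)) fun χ hχ h0 => by
      rcases degree_mem hna hM hN hcon m1 hψ hχ hne with h | h
      · exact absurd (hvan χ h) h0
      · rw [h]
    obtain ⟨θ, -, h2, h3, -⟩ := below hM hN hψ
    have h4 := hS θ h2
    have h5 := Nat.le_of_dvd (charDegree_pos ψ) h3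
    omega
  · push Not at hex
    have h1 := le_of_dvd_all hM hN hpx hxN (g := Nat.card (Out S) + 1) fun χ hχ h0 =>
      absurd (hvan χ (hex χ hχ).symm) h0
    omega

end Cfsg.Agent.H589.BD
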